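import Mathlib

/-!
# Prime powers `2^k ± 1`
-/

set_option autoImplicit false

namespace Cfsg.Agent.Lib.SelfCen.ListNum

/-- The odd cofactor of `p^(2g+1) - ε`. -/
theorem exists_odd_cofactor (p : ℤ) (hp : Odd p) (ε : ℤ) (hε : ε = 1 ∨ ε = -1) (g : ℕ) :
    ∃ c : ℤ, Odd c ∧ p ^ (2 * g + 1) - ε = (p - ε) * c := by
  have hε2 : ε * ε = 1 := by rcases hε with rfl | rfl <;> norm_num
  have hεo : Odd ε := by rcases hε with rfl | rfl <;> decide
  induction g with
  | zero => exact ⟨1, odd_one, by ring⟩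
  | succ g ih =>
    obtain ⟨c, hc, h⟩ := ih
    refine ⟨p ^ 2 * c + ε * p + 1, ?_, ?_⟩
    · have h1 : Odd (p ^ 2 * c) := (hp.pow).mul hc
      have h2 : Odd (ε * p) := hεo.mul hp
      exact (h1.add_odd h2).add_one
    · have e : p ^ (2 * (g + 1) + 1) = p ^ 2 * p ^ (2 * g + 1) := by ring
      have e2 : p ^ 2 * p ^ (2 * g + 1) = p ^ 2 * (p ^ (2 * g + 1) - ε) + p ^ 2 * ε := by ring
      rw [e, e2, h]
      linear_combination p * hε2

/-- A prime power of the form `2^k ± 1` has exponent one unless it is `9`. -/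
theorem prime_or_nine {p f k : ℕ} (hp : p.Prime) (hp2 : p ≠ 2) (hf : f ≠ 0)
    (h : p ^ f = 2 ^ k + 1 ∨ p ^ f + 1 = 2 ^ k) : f = 1 ∨ p ^ f = 9 := by
  have hpo : Odd p := hp.odd_of_ne_two hp2
  have hp3 : 3 ≤ p := by
    have := hp.two_le
    omega
  rcases Nat.even_or_odd' f with ⟨g, rfl | rfl⟩
  · -- even exponent
    have hg : g ≠ 0 := by rintro rfl; simp at hf
    obtain ⟨r, hr⟩ : ∃ r, r = p ^ g := ⟨_, rfl⟩
    have hro : Odd r := hr ▸ hpo.pow
    have hr3 : 3 ≤ r := by
      rw [hr]
      calc 3 ≤ p := hp3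
        _ = p ^ 1 := (pow_one p).symm
        _ ≤ p ^ g := Nat.pow_le_pow_right hp.pos (by omega)
    have hrr : p ^ (2 * g) = r * r := by rw [hr, mul_comm 2, pow_mul, pow_two]
    rw [hrr] at h ⊢
    right
    obtain ⟨s, rfl⟩ := hro
    rcases h with h | h
    · -- `(r-1)(r+1) = 2^k`
      have e : (2 * s) * (2 * s + 2) = 2 ^ k := by nlinarith
      have h1 : 2 * s ∣ 2 ^ k := ⟨_, e.symm⟩
      obtain ⟨a, -, ha⟩ := (Nat.dvd_prime_pow Nat.prime_two).1 h1
      have h2 : 2 * s + 2 ∣ 2 ^ k := ⟨2 * s, by rw [← e]; ring⟩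
      obtain ⟨b, -, hb⟩ := (Nat.dvd_prime_pow Nat.prime_two).1 h2
      rcases a with _ | _ | a
      · simp at ha
      · have : s = 1 := by simpa using ha
        subst this
        norm_num
      · exfalso
        have ha' : 2 * s = 4 * 2 ^ a := by rw [ha]; ring
        have hlt : 2 ≤ b := by
          by_contra hb2
          have : b = 0 ∨ b = 1 := by omega
          rcases this with rfl | rfl <;> simp at hb <;> omega
        obtain ⟨b', rfl⟩ : ∃ b', b = b' + 2 := ⟨b - 2, by omega⟩
        have hb' : 2 * s + 2 = 4 * 2 ^ b' := by rw [hb]; ring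
        omega
    · -- `r² + 1 = 2^k`
      exfalso
      have e : (2 * s + 1) * (2 * s + 1) + 1 = 2 * (2 * s * s + 2 * s + 1) := by ring
      rw [e] at h
      rcases k with _ | _ | k
      · simp at h
      · simp at h
        subst_vars
        omega
      · have : 2 ^ (k + 2) = 2 * (2 * 2 ^ k) := by ring
        rw [this] at h
        have h9 := Nat.eq_of_mul_eq_mul_left (by norm_num) h
        have e2 : 2 * s * s + 2 * s + 1 = 2 * (s * s + s) + 1 := by ring
        rw [e2] at h9
        omega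
  · -- odd exponent
    left
    have hk := exists_odd_cofactor (p : ℤ) (by exact_mod_cast hpo)
    rcases h with h | h
    · obtain ⟨c, hc, e⟩ := hk 1 (Or.inl rfl) g
      have h1 : ((p : ℤ)) ^ (2 * g + 1) - 1 = 2 ^ k := by
        have : ((p ^ (2 * g + 1) : ℕ) : ℤ) = ((2 ^ k + 1 : ℕ) : ℤ) := by rw [h]
        push_cast at this
        linarith
      rw [h1] at e
      have hcd : c ∣ 2 ^ k := ⟨(p : ℤ) - 1, by rw [e]; ring⟩
      have hcu : IsUnit c := by
        have h3 : IsCoprime c (2 ^ k) := by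
          apply IsCoprime.pow_right
          obtain ⟨d, rfl⟩ := hc
          exact ⟨1, -d, by ring⟩
        exact h3.isUnit_of_dvd' dvd_rfl hcd
      rcases Int.isUnit_iff.1 hcu with rfl | rfl
      · have h4 : ((p : ℤ)) ^ (2 * g + 1) = p := by linarith
        have h5 : p ^ (2 * g + 1) = p ^ 1 := by
          rw [pow_one]; exact_mod_cast h4
        have := Nat.pow_right_injective hp.two_le h5
        omega
      · exfalso
        have h6 : (0 : ℤ) < 2 ^ k := by positivity
        have h7 : (3 : ℤ) ≤ p := by exact_mod_cast hp3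
        rw [e] at h6
        linarith
    · obtain ⟨c, hc, e⟩ := hk (-1) (Or.inr rfl) g
      have h1 : ((p : ℤ)) ^ (2 * g + 1) - (-1) = 2 ^ k := by
        have : ((p ^ (2 * g + 1) + 1 : ℕ) : ℤ) = ((2 ^ k : ℕ) : ℤ) := by rw [h]
        push_cast at this
        linarith
      rw [h1] at e
      have hcd : c ∣ 2 ^ k := ⟨(p : ℤ) - (-1), by rw [e]; ring⟩
      have hcu : IsUnit c := by
        have h3 : IsCoprime c (2 ^ k) := by
          apply IsCoprime.pow_right
          obtain ⟨d, rfl⟩ := hc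
          exact ⟨1, -d, by ring⟩
        exact h3.isUnit_of_dvd' dvd_rfl hcd
      rcases Int.isUnit_iff.1 hcu with rfl | rfl
      · have h4 : ((p : ℤ)) ^ (2 * g + 1) = p := by linarith
        have h5 : p ^ (2 * g + 1) = p ^ 1 := by
          rw [pow_one]; exact_mod_cast h4
        have := Nat.pow_right_injective hp.two_le h5
        omega
      · exfalso
        have h6 : (0 : ℤ) < 2 ^ k := by positivity
        have h7 : (3 : ℤ) ≤ p := by exact_mod_cast hp3
        rw [e] at h6
        linarith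

end Cfsg.Agent.Lib.SelfCen.ListNum
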